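import Mathlib
import Cfsg.Prelude.Def_Characters
import Cfsg.Agent.Lib.Helper80.OneDegree

/-!
# Central elements acting by scalars pass to irreducible constituents
-/

set_option autoImplicit false

namespace Cfsg.Agent.Lib.Helper16

open Cfsg
open scoped ComplexConjugate

/-- if a central element `z` multiplies the function `ψ` by the scalar `c` (under translation),
then it multiplies every irreducible constituent of `ψ` by `c` -/
theorem central_scalar_of_constituent {H : Type*} [Group H] [Fintype H] {ψ τ : H → ℂ}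
    (hτ : Cfsg.IsIrrCharacter H τ) {z : H} (hz : z ∈ Subgroup.center H) {c : ℂ}
    (hψ : ∀ h : H, ψ (z * h) = c * ψ h) (hne : Cfsg.classInner ψ τ ≠ 0) :
    ∀ h : H, τ (z * h) = c * τ h := by
  obtain ⟨ω, hω1, hω2⟩ := Cfsg.Agent.Lib.Helper80.central_char_mul hτ hz
  have hnorm : ω * conj ω = 1 := by
    have hn1 : ‖ω‖ = 1 := Complex.norm_eq_one_of_pow_eq_one hω1 (orderOf_pos z).ne'
    rw [Complex.mul_conj, Complex.normSq_eq_norm_sq, hn1]
    norm_num
  have key : Cfsg.classInner ψ τ = c * conj ω * Cfsg.classInner ψ τ := by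
    unfold Cfsg.classInner
    have h1 : ∑ h : H, ψ h * conj (τ h) = ∑ h : H, ψ (z * h) * conj (τ (z * h)) :=
      (Fintype.sum_equiv (Equiv.mulLeft z) (fun h => ψ (z * h) * conj (τ (z * h)))
        (fun h => ψ h * conj (τ h)) (fun h => rfl)).symm
    have h2 : ∀ h : H, ψ (z * h) * conj (τ (z * h)) = c * conj ω * (ψ h * conj (τ h)) := by
      intro h
      rw [hψ, hω2, map_mul]
      ring
    conv_lhs => rw [h1, Finset.sum_congr rfl (fun h _ => h2 h), ← Finset.mul_sum]
    ring
  have h1 : c * conj ω = 1 := by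
    have h3 : (c * conj ω - 1) * Cfsg.classInner ψ τ = 0 := by
      linear_combination -key
    rcases mul_eq_zero.mp h3 with h | h
    · exact sub_eq_zero.mp h
    · exact absurd h hne
  have hcω : c = ω := by
    calc c = c * (conj ω * ω) := by rw [mul_comm (conj ω) ω, hnorm, mul_one]
      _ = (c * conj ω) * ω := by ring
      _ = ω := by rw [h1, one_mul]
  intro h
  rw [hcω]
  exact hω2 h

end Cfsg.Agent.Lib.Helper16
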