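import Mathlib
import Cfsg.Prelude.Def_Blocks
import Cfsg.Agent.Lib.Helper16.Induced
import Cfsg.Agent.Lib.Helper75.CharInd
import Cfsg.Agent.Lib.Helper3.IndFun
import Cfsg.Agent.Lib.Helper76.BlockCount

/-!
# Induced characters and induced blocks

The central character of an induced function is the induced central character; hence if
`ψ ∈ Irr(H)` induces irreducibly to `G`, the block of `ψ` induces the block of `ψ^G`.
Induction of class functions preserves local integrality.
-/

set_option autoImplicit false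

namespace Cfsg.Agent.Lib.Helper16

open Cfsg
open scoped ComplexConjugate

section
variable {G : Type*} [Group G] [Fintype G] {M : Ideal Cfsg.AlgInt}

open scoped Classical in
/-- value of an induced function as a sum over the part of the class lying in the subgroup -/
lemma indFun_eq_sum (H : Subgroup G) [Fintype H] (ξ : H → ℂ) (g : G) :
    Cfsg.indFun H ξ g =
      (Nat.card (Subgroup.centralizer ({g} : Set G)) : ℂ) / (Nat.card H : ℂ) *
        ∑ h ∈ Finset.univ.filter (fun h : H => IsConj g (h : G)), ξ h := by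
  unfold Cfsg.indFun
  rw [sum_conj_eq (Cfsg.extendByZero H ξ) g]
  have h2 : ∑ y : G, (if IsConj g y then Cfsg.extendByZero H ξ y else 0) =
      ∑ h ∈ Finset.univ.filter (fun h : H => IsConj g (h : G)), ξ h := by
    have h1 : ∀ y : G, (if IsConj g y then Cfsg.extendByZero H ξ y else 0) =
        Cfsg.extendByZero H ξ y * (if IsConj g y then 1 else 0) := by
      intro y
      split_ifs <;> simp
    rw [Finset.sum_congr rfl (fun y _ => h1 y), Cfsg.Agent.Lib.Helper3.sum_extendByZero_mul,
      Finset.sum_filter]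
    apply Finset.sum_congr rfl
    intro h _
    split_ifs <;> simp
  rw [h2]
  ring

/-- **The central character of an induced function is the induced central character.** -/
theorem centralChar_indFun (H : Subgroup G) [Fintype H] (ξ : H → ℂ) (g : G) :
    Cfsg.centralChar (Cfsg.indFun H ξ) g = Cfsg.inducedCentralChar H ξ g := by
  classical
  rw [inducedCentralChar_eq_sum]
  unfold Cfsg.centralChar
  rw [indFun_eq_sum, Cfsg.Agent.Lib.Helper75.indFun_one, ← Finset.sum_div]
  have h1 : ((Subgroup.centralizer ({g} : Set G)).index : ℂ) *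
      (Nat.card (Subgroup.centralizer ({g} : Set G)) : ℂ) = (Nat.card G : ℂ) := by
    rw [← Nat.cast_mul, Subgroup.index_mul_card]
  have h2 : (H.index : ℂ) * (Nat.card H : ℂ) = (Nat.card G : ℂ) := by
    rw [← Nat.cast_mul, Subgroup.index_mul_card]
  have hH : (Nat.card H : ℂ) ≠ 0 := by
    exact_mod_cast (Nat.card_pos (α := H)).ne'
  have hHi : (H.index : ℂ) ≠ 0 := by
    exact_mod_cast (Subgroup.index_ne_zero_of_finite (H := H))
  by_cases hξ : ξ 1 = 0
  · rw [hξ]
    simp
  · field_simp
    rw [h1, mul_comm (Nat.card H : ℂ) (H.index : ℂ), h2]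
    congr 1
    apply Finset.sum_congr _ (fun _ _ => rfl)
    congr

/-- a bilinear form of Frobenius reciprocity -/
lemma sum_indFun_mul (H : Subgroup G) [Fintype H] (β : H → ℂ) {f : G → ℂ}
    (hf : Cfsg.IsClassFunction G f) :
    ∑ y : G, Cfsg.indFun H β y * f y = (H.index : ℂ) * ∑ h : H, β h * f h := by
  have hc : Cfsg.IsClassFunction G (fun g => conj (f g)) := by
    intro g h
    show conj (f (h * g * h⁻¹)) = conj (f g)
    rw [hf g h]
  have h1 := Cfsg.Agent.Lib.Helper75.frobenius_reciprocity H β hc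
  unfold Cfsg.classInner at h1
  simp only [Complex.conj_conj] at h1
  have h2 : (H.index : ℂ) * (Nat.card H : ℂ) = (Nat.card G : ℂ) := by
    rw [← Nat.cast_mul, Subgroup.index_mul_card]
  have hH : (Nat.card H : ℂ) ≠ 0 := by
    exact_mod_cast (Nat.card_pos (α := H)).ne'
  have hG : (Nat.card G : ℂ) ≠ 0 := by
    exact_mod_cast (Nat.card_pos (α := G)).ne'
  have h3 : ∑ y : G, Cfsg.indFun H β y * f y =
      (Nat.card G : ℂ) * ((Nat.card H : ℂ)⁻¹ * ∑ h : H, β h * f h) := by
    rw [← h1]
    field_simp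
  rw [h3, ← h2]
  field_simp

/-- if `ψ ∈ Irr(H)` induces the irreducible character `χ`, the block of `ψ` induces the block
of `χ` -/
theorem isInducedBlock_blockOf (hM : M.IsPrime) (H : Subgroup G) [Fintype H]
    (ψ : Cfsg.IrrCharacter H) (χ : Cfsg.IrrCharacter G)
    (h : (χ : G → ℂ) = Cfsg.indFun H (ψ : H → ℂ)) :
    Cfsg.IsInducedBlock M H (Cfsg.blockOf M (ψ : H → ℂ)) (Cfsg.blockOf M (χ : G → ℂ)) := by
  refine ⟨isPBlock_blockOf ψ, isPBlock_blockOf χ, ?_⟩
  intro ξ hξ χ' hχ' g
  have h1 := inducedCentralChar_sub_mem hM H (irrCharacter_conj_eq ξ) (irrCharacter_conj_eq ψ)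
    (sameBlock_symm hξ) g
  have h2 : Cfsg.centralChar (χ : G → ℂ) g = Cfsg.inducedCentralChar H (ψ : H → ℂ) g := by
    rw [h]
    exact centralChar_indFun H (ψ : H → ℂ) g
  have h3 : MemLocalIdeal M (Cfsg.centralChar (χ : G → ℂ) g - Cfsg.centralChar (χ' : G → ℂ) g) :=
    hχ' g
  have h4 := memLocalIdeal_add hM h1 h3
  rw [h2] at h4
  rw [show Cfsg.inducedCentralChar H (ξ : H → ℂ) g - Cfsg.centralChar (χ' : G → ℂ) g =
    Cfsg.inducedCentralChar H (ξ : H → ℂ) g - Cfsg.inducedCentralChar H (ψ : H → ℂ) g +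
      (Cfsg.inducedCentralChar H (ψ : H → ℂ) g - Cfsg.centralChar (χ' : G → ℂ) g) by ring]
  exact h4

/-- the block induced by a block is unique -/
theorem isInducedBlock_unique (hM : M.IsPrime) (H : Subgroup G) {b : Set (Cfsg.IrrCharacter H)}
    {B₁ B₂ : Set (Cfsg.IrrCharacter G)} (h₁ : Cfsg.IsInducedBlock M H b B₁)
    (h₂ : Cfsg.IsInducedBlock M H b B₂) : B₁ = B₂ := by
  obtain ⟨ξ, hξ⟩ := IsPBlock.nonempty hM h₁.1
  obtain ⟨χ₁, hχ₁⟩ := IsPBlock.nonempty hM h₁.2.1
  obtain ⟨χ₂, hχ₂⟩ := IsPBlock.nonempty hM h₂.2.1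
  rw [IsPBlock.eq_blockOf hM h₁.2.1 hχ₁, IsPBlock.eq_blockOf hM h₂.2.1 hχ₂]
  apply blockOf_eq_of_sameBlock hM
  intro g
  have a1 := h₁.2.2 ξ hξ χ₁ hχ₁ g
  have a2 := h₂.2.2 ξ hξ χ₂ hχ₂ g
  have := memLocalIdeal_sub hM a2 a1
  rw [show Cfsg.centralChar (χ₁ : G → ℂ) g - Cfsg.centralChar (χ₂ : G → ℂ) g =
    Cfsg.inducedCentralChar H (ξ : H → ℂ) g - Cfsg.centralChar (χ₂ : G → ℂ) g -
      (Cfsg.inducedCentralChar H (ξ : H → ℂ) g - Cfsg.centralChar (χ₁ : G → ℂ) g) by ring]
  exact this

/-- the centralizer of an element of a subgroup, inside the subgroup and inside the group -/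
lemma card_centralizer_dvd (H : Subgroup G) (h : H) :
    Nat.card (Subgroup.centralizer ({h} : Set H)) ∣
      Nat.card (Subgroup.centralizer ({(h : G)} : Set G)) := by
  have hle : (Subgroup.centralizer ({h} : Set H)).map H.subtype ≤
      Subgroup.centralizer ({(h : G)} : Set G) := by
    rintro _ ⟨x, hx, rfl⟩
    rw [Subgroup.mem_centralizer_iff]
    intro y hy
    rw [Set.mem_singleton_iff] at hy
    rw [hy]
    have := (Subgroup.mem_centralizer_iff.mp hx) h (Set.mem_singleton _)
    exact congrArg Subtype.val this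
  have := Subgroup.card_dvd_of_le hle
  rwa [Subgroup.card_map_of_injective (Subgroup.subtype_injective H)] at this

/-- **Induction of class functions preserves local integrality.** -/
theorem isRClass_indFun (hM : M.IsPrime) (H : Subgroup G) [Fintype H] {β : H → ℂ}
    (hβ : IsRClass M β) : IsRClass M (Cfsg.indFun H β) := by
  classical
  refine ⟨Cfsg.Agent.Lib.Helper75.indFun_isClassFunction H β, fun g => ?_⟩
  rw [indFun_eq_sum, Finset.mul_sum]
  have hφ : ∀ h ∈ Finset.univ.filter (fun h : H => IsConj g (h : G)),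
      (Nat.card (Subgroup.centralizer ({g} : Set G)) : ℂ) / (Nat.card H : ℂ) * β h =
      (fun h : H => if IsConj g (h : G) then
        (Nat.card (Subgroup.centralizer ({(h : G)} : Set G)) : ℂ) / (Nat.card H : ℂ) * β h
        else 0) h := by
    intro h hh
    rw [Finset.mem_filter] at hh
    simp only [if_pos hh.2]
    obtain ⟨c, hc⟩ := isConj_iff.mp hh.2
    rw [← hc, Cfsg.Agent.Lib.Helper76.card_centralizer_conj]
  rw [Finset.sum_congr rfl hφ]
  apply sum_class_invariant_mem (MemLocalRing M) (memLocalRing_zero hM)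
    (fun a b ha hb => memLocalRing_add hM ha hb)
  · intro x h
    have e : ((x * h * x⁻¹ : H) : G) = (x : G) * (h : G) * (x : G)⁻¹ := by simp
    have hc : IsConj (h : G) ((x * h * x⁻¹ : H) : G) := by
      rw [e]
      exact isConj_iff.mpr ⟨(x : G), rfl⟩
    by_cases hg : IsConj g (h : G)
    · simp only [if_pos hg, if_pos (hg.trans hc)]
      rw [hβ.1 h x, e, Cfsg.Agent.Lib.Helper76.card_centralizer_conj]
    · have hg' : ¬ IsConj g ((x * h * x⁻¹ : H) : G) := fun h' => hg (h'.trans hc.symm)
      simp only [if_neg hg, if_neg hg']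
  · intro h
    by_cases hg : IsConj g (h : G)
    · simp only [if_pos hg]
      obtain ⟨k, hk⟩ := card_centralizer_dvd H h
      have h3 : (Subgroup.centralizer ({h} : Set H)).index *
          Nat.card (Subgroup.centralizer ({h} : Set H)) = Nat.card H :=
        Subgroup.index_mul_card _
      have hH : (Nat.card H : ℂ) ≠ 0 := by
        exact_mod_cast (Nat.card_pos (α := H)).ne'
      have hC : (Nat.card (Subgroup.centralizer ({h} : Set H)) : ℂ) ≠ 0 := by
        exact_mod_cast (Nat.card_pos (α := Subgroup.centralizer ({h} : Set H))).ne'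
      have hI : ((Subgroup.centralizer ({h} : Set H)).index : ℂ) ≠ 0 := by
        exact_mod_cast (Subgroup.index_ne_zero_of_finite
          (H := Subgroup.centralizer ({h} : Set H)))
      have e : ((Subgroup.centralizer ({h} : Set H)).index : ℂ) *
          ((Nat.card (Subgroup.centralizer ({(h : G)} : Set G)) : ℂ) / (Nat.card H : ℂ) * β h) =
          (k : ℂ) * β h := by
        rw [hk, ← h3]
        push_cast
        field_simp
      rw [e]
      exact memLocalRing_mul hM (memLocalRing_natCast hM k) (hβ.2 h)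
    · simp only [if_neg hg, mul_zero]
      exact memLocalRing_zero hM
  · intro x h hh
    rw [Finset.mem_filter] at hh ⊢
    refine ⟨Finset.mem_univ _, ?_⟩
    have : IsConj (h : G) ((x * h * x⁻¹ : H) : G) := by
      rw [isConj_iff]
      exact ⟨(x : G), by simp⟩
    exact hh.2.trans this

end

end Cfsg.Agent.Lib.Helper16
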