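import Mathlib
import Cfsg.Prelude.Def_Blocks
import Cfsg.Agent.Lib.Helper16.Robinson
import Cfsg.Agent.Lib.Helper77.Osima
import Cfsg.Agent.Lib.Helper79.SquareSum

/-!
# Counting blocks with a given defect group (Robinson)

The general pair-count identity for the permutation character on the cosets of a Sylow
`p`-subgroup, the weight of a block, and the invariance of the rank of a square matrix
under a homomorphism of fields.
-/

set_option autoImplicit false

namespace Cfsg.Agent.Lib.Helper16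

open Cfsg
open scoped ComplexConjugate

section RankMap

/-- the rank of a square matrix is unchanged under a homomorphism of fields -/
lemma rank_map_field {F K : Type*} [Field F] [Field K] {n : Type*} [Fintype n] [DecidableEq n]
    (f : F →+* K) (A : Matrix n n F) : (A.map f).rank = A.rank := by
  classical
  obtain ⟨L, L', D, h⟩ := Matrix.Pivot.exists_list_transvec_mul_diagonal_mul_list_transvec A
  obtain ⟨P, hP⟩ : ∃ P : Matrix n n F, P = (L.map Matrix.TransvectionStruct.toMatrix).prod :=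
    ⟨_, rfl⟩
  obtain ⟨Q, hQ⟩ : ∃ Q : Matrix n n F, Q = (L'.map Matrix.TransvectionStruct.toMatrix).prod :=
    ⟨_, rfl⟩
  rw [← hP, ← hQ] at h
  have hPd : P.det = 1 := by rw [hP]; exact Matrix.TransvectionStruct.det_toMatrix_prod L
  have hQd : Q.det = 1 := by rw [hQ]; exact Matrix.TransvectionStruct.det_toMatrix_prod L'
  have hPd' : (P.map f).det = 1 := by
    have := RingHom.map_det f P
    rw [hPd, map_one] at this
    exact this.symm
  have hQd' : (Q.map f).det = 1 := by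
    have := RingHom.map_det f Q
    rw [hQd, map_one] at this
    exact this.symm
  have e1 : (P * Matrix.diagonal D * Q).rank = (Matrix.diagonal D).rank := by
    rw [Matrix.rank_mul_eq_left_of_isUnit_det Q _ (by rw [hQd]; exact isUnit_one),
      Matrix.rank_mul_eq_right_of_isUnit_det P _ (by rw [hPd]; exact isUnit_one)]
  have e2 : ((P * Matrix.diagonal D * Q).map f).rank =
      (Matrix.diagonal (fun i => f (D i))).rank := by
    rw [Matrix.map_mul, Matrix.map_mul, Matrix.diagonal_map (map_zero f),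
      Matrix.rank_mul_eq_left_of_isUnit_det (Q.map f) _ (by rw [hQd']; exact isUnit_one),
      Matrix.rank_mul_eq_right_of_isUnit_det (P.map f) _ (by rw [hPd']; exact isUnit_one)]
  rw [h, e1, e2, Matrix.rank_diagonal, Matrix.rank_diagonal]
  apply Fintype.card_congr
  exact Equiv.subtypeEquivRight (fun i => by simp)

end RankMap

section
variable {G : Type*} [Group G] [Fintype G] {M : Ideal Cfsg.AlgInt}

open scoped Classical in
lemma sum_isConj_irr_inv (χ : Cfsg.IrrCharacter G) (x : G) :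
    (∑ y : G, if IsConj x y then (χ : G → ℂ) y⁻¹ else 0) =
      ((Subgroup.centralizer ({x} : Set G)).index : ℂ) * (χ : G → ℂ) x⁻¹ := by
  have h : ∀ y : G, (if IsConj x y then (χ : G → ℂ) y⁻¹ else 0) =
      if IsConj x y then (χ : G → ℂ) x⁻¹ else 0 := by
    intro y
    split_ifs with hc
    · obtain ⟨c, hc⟩ := isConj_iff.mp hc
      rw [← hc]
      have : (c * x * c⁻¹)⁻¹ = c * x⁻¹ * c⁻¹ := by group
      rw [this, irrCharacter_conj_eq]
    · rfl
  simp_rw [h]
  rw [← Finset.sum_filter, Finset.sum_const, card_isConj, nsmul_eq_mul]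

open scoped Classical in
/-- the pair-count identity: the number of pairs `(y, z)` of conjugates of `x₁`, `x₂` with
`z y⁻¹` in a Sylow subgroup, through the permutation character -/
lemma robinson_count [Fintype (Cfsg.IrrCharacter G)] (p : ℕ) [Fact p.Prime] (S : Sylow p G)
    (m : Cfsg.IrrCharacter G → ℕ)
    (hm : ∀ y : G, Cfsg.indFun (S : Subgroup G) (fun _ => (1 : ℂ)) y =
      ∑ χ : Cfsg.IrrCharacter G, (m χ : ℂ) * (χ : G → ℂ) y) (x₁ x₂ : G) :
    ((S : Subgroup G).index : ℂ) * (Nat.card {yz : G × G // IsConj x₁ yz.1 ∧ IsConj x₂ yz.2 ∧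
        yz.2 * yz.1⁻¹ ∈ (S : Subgroup G)} : ℂ) =
      ((Subgroup.centralizer ({x₁} : Set G)).index : ℂ) *
        ∑ χ : Cfsg.IrrCharacter G,
          (m χ : ℂ) * (Cfsg.centralChar (χ : G → ℂ) x₂ * (χ : G → ℂ) x₁⁻¹) := by
  set ψ : G → ℂ := Cfsg.indFun (S : Subgroup G) (fun _ => (1 : ℂ)) with hψ
  have hA : (∑ y : G, ∑ z : G, if IsConj x₁ y ∧ IsConj x₂ z then ψ (z * y⁻¹) else 0) =
      ((Subgroup.centralizer ({x₁} : Set G)).index : ℂ) *
        ∑ χ : Cfsg.IrrCharacter G,
          (m χ : ℂ) * (Cfsg.centralChar (χ : G → ℂ) x₂ * (χ : G → ℂ) x₁⁻¹) := by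
    have e1 : ∀ y : G, (∑ z : G, if IsConj x₁ y ∧ IsConj x₂ z then ψ (z * y⁻¹) else 0) =
        ∑ χ : Cfsg.IrrCharacter G, (m χ : ℂ) * Cfsg.centralChar (χ : G → ℂ) x₂ *
          (if IsConj x₁ y then (χ : G → ℂ) y⁻¹ else 0) := by
      intro y
      by_cases hy : IsConj x₁ y
      · simp only [hy, true_and, if_true]
        have e : ∀ z : G, (if IsConj x₂ z then ψ (z * y⁻¹) else 0) =
            ∑ χ : Cfsg.IrrCharacter G,
              (m χ : ℂ) * (if IsConj x₂ z then (χ : G → ℂ) (z * y⁻¹) else 0) := by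
          intro z
          rw [hm]
          split_ifs <;> simp
        simp_rw [e]
        rw [Finset.sum_comm]
        apply Finset.sum_congr rfl
        intro χ _
        rw [← Finset.mul_sum, sum_class_irr_mul, mul_assoc]
      · simp only [hy, false_and, if_false, mul_zero, Finset.sum_const_zero]
    simp_rw [e1]
    rw [Finset.sum_comm, Finset.mul_sum]
    apply Finset.sum_congr rfl
    intro χ _
    rw [← Finset.mul_sum, sum_isConj_irr_inv]
    ring
  have hψv : ∀ g : G, ψ g = (Nat.card (S : Subgroup G) : ℂ)⁻¹ *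
      ∑ t : G, if t⁻¹ * g * t ∈ (S : Subgroup G) then (1 : ℂ) else 0 := by
    intro g
    rw [hψ]
    unfold Cfsg.indFun
    congr 1
    apply Finset.sum_congr rfl
    intro t _
    split_ifs with h
    · rw [Cfsg.Agent.Lib.Helper75.extendByZero_mem _ _ h]
    · rw [Cfsg.Agent.Lib.Helper75.extendByZero_not_mem _ _ h]
  have hN : (Nat.card {yz : G × G // IsConj x₁ yz.1 ∧ IsConj x₂ yz.2 ∧
      yz.2 * yz.1⁻¹ ∈ (S : Subgroup G)} : ℂ) =
      ∑ y : G, ∑ z : G,
        if IsConj x₁ y ∧ IsConj x₂ z ∧ z * y⁻¹ ∈ (S : Subgroup G) then (1 : ℂ) else 0 := by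
    rw [Nat.card_eq_fintype_card, Fintype.card_subtype, Finset.card_filter]
    push_cast
    rw [Fintype.sum_prod_type]
  have ht : ∀ t : G, (∑ y : G, ∑ z : G,
      if IsConj x₁ y ∧ IsConj x₂ z ∧ t⁻¹ * (z * y⁻¹) * t ∈ (S : Subgroup G)
        then (1 : ℂ) else 0) =
      ∑ y : G, ∑ z : G,
        if IsConj x₁ y ∧ IsConj x₂ z ∧ z * y⁻¹ ∈ (S : Subgroup G) then (1 : ℂ) else 0 := by
    intro t
    apply Fintype.sum_equiv (MulAut.conj t⁻¹).toEquiv
    intro y
    apply Fintype.sum_equiv (MulAut.conj t⁻¹).toEquiv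
    intro z
    simp only [MulEquiv.toEquiv_eq_coe, MulEquiv.coe_toEquiv, MulAut.conj_apply, inv_inv]
    have h1 : IsConj x₁ (t⁻¹ * y * t) ↔ IsConj x₁ y := by
      have hc : IsConj y (t⁻¹ * y * t) := isConj_iff.mpr ⟨t⁻¹, by simp⟩
      exact ⟨fun h => h.trans hc.symm, fun h => h.trans hc⟩
    have h2 : IsConj x₂ (t⁻¹ * z * t) ↔ IsConj x₂ z := by
      have hc : IsConj z (t⁻¹ * z * t) := isConj_iff.mpr ⟨t⁻¹, by simp⟩
      exact ⟨fun h => h.trans hc.symm, fun h => h.trans hc⟩
    have h3 : t⁻¹ * z * t * (t⁻¹ * y * t)⁻¹ = t⁻¹ * (z * y⁻¹) * t := by group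
    simp only [h1, h2, h3]
  have hterm : ∀ y z : G, (if IsConj x₁ y ∧ IsConj x₂ z then ψ (z * y⁻¹) else 0) =
      (Nat.card (S : Subgroup G) : ℂ)⁻¹ * ∑ t : G,
        if IsConj x₁ y ∧ IsConj x₂ z ∧ t⁻¹ * (z * y⁻¹) * t ∈ (S : Subgroup G)
          then (1 : ℂ) else 0 := by
    intro y z
    by_cases h : IsConj x₁ y ∧ IsConj x₂ z
    · rw [if_pos h, hψv]
      congr 1
      apply Finset.sum_congr rfl
      intro t _
      simp only [h.1, h.2, true_and]
    · rw [if_neg h]
      have h' : ∀ t : G, ¬ (IsConj x₁ y ∧ IsConj x₂ z ∧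
          t⁻¹ * (z * y⁻¹) * t ∈ (S : Subgroup G)) := fun t hh => h ⟨hh.1, hh.2.1⟩
      simp only [h', if_false, Finset.sum_const_zero, mul_zero]
  rw [← hA]
  simp_rw [hterm, ← Finset.mul_sum]
  have hswap : (∑ y : G, ∑ z : G, ∑ t : G,
      if IsConj x₁ y ∧ IsConj x₂ z ∧ t⁻¹ * (z * y⁻¹) * t ∈ (S : Subgroup G)
        then (1 : ℂ) else 0) =
      ∑ t : G, ∑ y : G, ∑ z : G,
        if IsConj x₁ y ∧ IsConj x₂ z ∧ t⁻¹ * (z * y⁻¹) * t ∈ (S : Subgroup G)
          then (1 : ℂ) else 0 := by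
    have h1 : ∀ y : G, (∑ z : G, ∑ t : G,
        if IsConj x₁ y ∧ IsConj x₂ z ∧ t⁻¹ * (z * y⁻¹) * t ∈ (S : Subgroup G)
          then (1 : ℂ) else 0) =
        ∑ t : G, ∑ z : G,
          if IsConj x₁ y ∧ IsConj x₂ z ∧ t⁻¹ * (z * y⁻¹) * t ∈ (S : Subgroup G)
            then (1 : ℂ) else 0 := fun y => Finset.sum_comm
    simp_rw [h1]
    exact Finset.sum_comm
  rw [hswap]
  simp_rw [ht]
  rw [Finset.sum_const, Finset.card_univ, ← hN, nsmul_eq_mul, ← Nat.card_eq_fintype_card,
    ← Subgroup.index_mul_card (S : Subgroup G)]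
  have hS0 : (Nat.card (S : Subgroup G) : ℂ) ≠ 0 := by exact_mod_cast Nat.card_pos.ne'
  push_cast
  field_simp

lemma finsum_mem_eq_sum_ite' {α A : Type*} [Fintype α] [AddCommMonoid A] (s : Set α)
    [DecidablePred (· ∈ s)] (f : α → A) : ∑ᶠ a ∈ s, f a = ∑ a, if a ∈ s then f a else 0 := by
  rw [finsum_mem_def, finsum_eq_sum_of_fintype]
  apply Finset.sum_congr rfl
  intro a _
  by_cases ha : a ∈ s <;> simp [ha]

lemma map_conj_eq_of_normal (D : Subgroup G) [hD : D.Normal] (x : G) :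
    D.map (MulAut.conj x).toMonoidHom = D := by
  ext g
  constructor
  · rintro ⟨d, hd, rfl⟩
    exact hD.conj_mem d hd x
  · intro hg
    refine ⟨x⁻¹ * g * x, by simpa using hD.conj_mem g hg x⁻¹, ?_⟩
    simp only [MulEquiv.coe_toMonoidHom, MulAut.conj_apply]
    group

open scoped Classical in
/-- `|S| · ∑_{χ ∈ B} m_χ χ(1) = ∑_{χ ∈ B} χ(1)²` for the multiplicities `m` of the permutation
character on the cosets of the Sylow subgroup `S` -/
lemma sum_mult_degree [Fintype (Cfsg.IrrCharacter G)] {p : ℕ} [Fact p.Prime]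
    (hM : Cfsg.IsPModular p M) (S : Sylow p G) (m : Cfsg.IrrCharacter G → ℕ)
    (hm : ∀ χ : Cfsg.IrrCharacter G,
      Cfsg.classInner (Cfsg.indFun (S : Subgroup G) (fun _ => (1 : ℂ))) (χ : G → ℂ) = m χ)
    (B : Set (Cfsg.IrrCharacter G)) (hB : Cfsg.IsPBlock M B) :
    Nat.card (S : Subgroup G) *
        (∑ χ : Cfsg.IrrCharacter G, if χ ∈ B then m χ * Cfsg.charDegree (χ : G → ℂ) else 0) =
      ∑ χ : Cfsg.IrrCharacter G, if χ ∈ B then Cfsg.charDegree (χ : G → ℂ) ^ 2 else 0 := by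
  have hp := (Fact.out : p.Prime)
  set ψ : G → ℂ := Cfsg.indFun (S : Subgroup G) (fun _ => (1 : ℂ)) with hψ
  have hdeg : ∀ χ : Cfsg.IrrCharacter G, (χ : G → ℂ) 1 = (Cfsg.charDegree (χ : G → ℂ) : ℂ) :=
    fun χ => (Cfsg.Agent.Lib.Helper79.irr_charDegree χ.2).1
  have hG0 : (Nat.card G : ℂ) ≠ 0 := by exact_mod_cast Nat.card_pos.ne'
  -- the weighted sum is the pairing of `ψ` with the block idempotent
  have h1 : (∑ χ : Cfsg.IrrCharacter G,
      if χ ∈ B then (m χ : ℂ) * (χ : G → ℂ) 1 else 0) =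
      ∑ g : G, ψ g * Cfsg.blockCoeff B g := by
    have e : ∀ g : G, ψ g * Cfsg.blockCoeff B g = ∑ χ : Cfsg.IrrCharacter G,
        if χ ∈ B then (Nat.card G : ℂ)⁻¹ * (ψ g * conj ((χ : G → ℂ) g)) * (χ : G → ℂ) 1
          else 0 := by
      intro g
      unfold Cfsg.blockCoeff
      rw [finsum_mem_eq_sum_ite, Finset.mul_sum, Finset.mul_sum]
      apply Finset.sum_congr rfl
      intro χ _
      split_ifs
      · ring
      · ring
    simp_rw [e]
    rw [Finset.sum_comm]
    apply Finset.sum_congr rfl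
    intro χ _
    split_ifs with hχ
    · rw [← hm χ]
      unfold Cfsg.classInner
      rw [← Finset.sum_mul, ← Finset.mul_sum]
    · simp
  -- only the identity contributes
  have h2 : (∑ g : G, ψ g * Cfsg.blockCoeff B g) = ψ 1 * Cfsg.blockCoeff B 1 := by
    apply Finset.sum_eq_single
    · intro g _ hg
      by_cases hdiv : p ∣ orderOf g
      · rw [Cfsg.Agent.Lib.Helper77.blockCoeff_eq_zero_of_singular hM B hB hdiv, mul_zero]
      · have : ψ g = 0 := by
          apply indFun_one_eq_zero_of_not_conj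
          intro t ht
          obtain ⟨k, hk⟩ := (IsPGroup.iff_orderOf.mp S.isPGroup') ⟨_, ht⟩
          rw [Subgroup.orderOf_mk] at hk
          have hk2 : orderOf g = p ^ k := by
            rw [← hk]
            have := (MulAut.conj t⁻¹).orderOf_eq g
            rw [← this]
            simp [MulAut.conj_apply]
          rcases Nat.eq_zero_or_pos k with h0 | hpos
          · rw [h0, pow_zero, orderOf_eq_one_iff] at hk2
            exact hg hk2
          · apply hdiv
            rw [hk2]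
            exact dvd_pow_self p hpos.ne'
        rw [this, zero_mul]
    · intro h; exact absurd (Finset.mem_univ _) h
  have h3 : ψ 1 * Cfsg.blockCoeff B 1 = ((S : Subgroup G).index : ℂ) * ((Nat.card G : ℂ)⁻¹ *
      ∑ χ : Cfsg.IrrCharacter G, if χ ∈ B then (χ : G → ℂ) 1 * (χ : G → ℂ) 1 else 0) := by
    rw [hψ, Cfsg.Agent.Lib.Helper75.indFun_one, mul_one]
    unfold Cfsg.blockCoeff
    rw [finsum_mem_eq_sum_ite]
    congr 3
    funext χ
    split_ifs
    · rw [hdeg, Complex.conj_natCast]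
    · rfl
  have hC : ((Nat.card (S : Subgroup G) : ℕ) : ℂ) *
        (∑ χ : Cfsg.IrrCharacter G,
          if χ ∈ B then (m χ : ℂ) * (χ : G → ℂ) 1 else 0) =
      ∑ χ : Cfsg.IrrCharacter G, if χ ∈ B then (χ : G → ℂ) 1 * (χ : G → ℂ) 1 else 0 := by
    rw [h1, h2, h3]
    have hidx : ((Nat.card (S : Subgroup G) : ℕ) : ℂ) * ((S : Subgroup G).index : ℂ) =
        (Nat.card G : ℂ) := by
      rw [mul_comm]
      exact_mod_cast Subgroup.index_mul_card (S : Subgroup G)
    rw [← mul_assoc, hidx, ← mul_assoc, mul_inv_cancel₀ hG0, one_mul]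
  have hcast : ((Nat.card (S : Subgroup G) *
        (∑ χ : Cfsg.IrrCharacter G, if χ ∈ B then m χ * Cfsg.charDegree (χ : G → ℂ) else 0) :
          ℕ) : ℂ) =
      ((∑ χ : Cfsg.IrrCharacter G, if χ ∈ B then Cfsg.charDegree (χ : G → ℂ) ^ 2 else 0 : ℕ) :
        ℂ) := by
    push_cast
    simp_rw [hdeg] at hC
    rw [hC]
    apply Finset.sum_congr rfl
    intro χ _
    split_ifs
    · ring
    · rfl
  exact_mod_cast hcast

open scoped Classical in
/-- the weight of a block is prime to `p` (Brauer's theorem on the dimension of a block) -/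
lemma weight_not_dvd [Fintype (Cfsg.IrrCharacter G)] {p : ℕ} [Fact p.Prime]
    (hM : Cfsg.IsPModular p M) (S : Sylow p G) (m : Cfsg.IrrCharacter G → ℕ)
    (hm : ∀ χ : Cfsg.IrrCharacter G,
      Cfsg.classInner (Cfsg.indFun (S : Subgroup G) (fun _ => (1 : ℂ))) (χ : G → ℂ) = m χ)
    (B : Set (Cfsg.IrrCharacter G)) (hB : Cfsg.IsPBlock M B) :
    ¬ p ∣ ∑ χ : Cfsg.IrrCharacter G, if χ ∈ B then m χ * (Cfsg.charDegree (χ : G → ℂ) /
      p ^ ((Nat.card G).factorization p - Cfsg.blockDefect p B)) else 0 := by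
  have hMp := isPrime_of_isPModular hM
  have hp := (Fact.out : p.Prime)
  intro hdvd
  obtain ⟨a, ha⟩ : ∃ a, a = (Nat.card G).factorization p := ⟨_, rfl⟩
  obtain ⟨d, hd⟩ : ∃ d, d = Cfsg.blockDefect p B := ⟨_, rfl⟩
  rw [← ha, ← hd] at hdvd
  have hda : d ≤ a := by
    rw [hd, ha]; unfold Cfsg.blockDefect; exact Nat.sub_le _ _
  have h1 := sum_mult_degree hM S m hm B hB
  have h2 := Cfsg.Agent.Lib.Helper79.sq_sum_factorization hM B hB
  rw [finsum_mem_eq_sum_ite', ← ha, ← hd] at h2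
  rw [← h1, S.card_eq_multiplicity, ← ha] at h2
  -- each degree in the block is divisible by `p ^ (a - d)`
  have hdeg : ∀ χ ∈ B, p ^ (a - d) ∣ Cfsg.charDegree (χ : G → ℂ) := by
    intro χ hχ
    obtain ⟨-, hpos, hdvdG⟩ := Cfsg.Agent.Lib.Helper79.irr_charDegree χ.2
    have hmem : (Cfsg.charDegree (χ : G → ℂ)).factorization p ∈
        ((fun χ : Cfsg.IrrCharacter G => (Cfsg.charDegree (χ : G → ℂ)).factorization p) '' B) :=
      ⟨χ, hχ, rfl⟩
    have hsInf := Nat.sInf_le hmem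
    have hle : a - d ≤ (Cfsg.charDegree (χ : G → ℂ)).factorization p := by
      rw [hd, ha]; unfold Cfsg.blockDefect; omega
    exact (Nat.pow_dvd_pow p hle).trans (Nat.ordProj_dvd _ p)
  have h3 : (∑ χ : Cfsg.IrrCharacter G, if χ ∈ B then m χ * Cfsg.charDegree (χ : G → ℂ) else 0) =
      p ^ (a - d) * ∑ χ : Cfsg.IrrCharacter G, if χ ∈ B then m χ * (Cfsg.charDegree (χ : G → ℂ) /
        p ^ (a - d)) else 0 := by
    rw [Finset.mul_sum]
    apply Finset.sum_congr rfl
    intro χ _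
    split_ifs with hχ
    · obtain ⟨c, hc⟩ := hdeg χ hχ
      rw [hc, Nat.mul_div_cancel_left _ (pow_pos hp.pos _)]
      ring
    · rw [mul_zero]
  rw [h3] at h2
  obtain ⟨w, hw⟩ := hdvd
  rw [hw] at h2 h3
  -- the total is nonzero
  have hne : (∑ χ : Cfsg.IrrCharacter G,
      if χ ∈ B then m χ * Cfsg.charDegree (χ : G → ℂ) else 0) ≠ 0 := by
    intro h0
    rw [h0, mul_zero] at h1
    obtain ⟨χ₀, hχ₀⟩ := IsPBlock.nonempty hMp hB
    have hpos := (Cfsg.Agent.Lib.Helper79.irr_charDegree χ₀.2).2.1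
    have hle : Cfsg.charDegree (χ₀ : G → ℂ) ^ 2 ≤ ∑ χ : Cfsg.IrrCharacter G,
        if χ ∈ B then Cfsg.charDegree (χ : G → ℂ) ^ 2 else 0 := by
      have := Finset.single_le_sum (f := fun χ : Cfsg.IrrCharacter G =>
        if χ ∈ B then Cfsg.charDegree (χ : G → ℂ) ^ 2 else 0) (fun _ _ => Nat.zero_le _)
        (Finset.mem_univ χ₀)
      simpa [hχ₀] using this
    rw [← h1] at hle
    have : 0 < Cfsg.charDegree (χ₀ : G → ℂ) ^ 2 := pow_pos hpos 2
    omega
  have hw0 : w ≠ 0 := by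
    rintro rfl
    rw [h3] at hne
    simp at hne
  have hfac : (p ^ a * (p ^ (a - d) * (p * w))).factorization p = a + (a - d) + 1 +
      w.factorization p := by
    have e : p ^ a * (p ^ (a - d) * (p * w)) = p ^ (a + (a - d) + 1) * w := by ring
    rw [e, Nat.factorization_mul (pow_pos hp.pos _).ne' hw0, Nat.Prime.factorization_pow hp]
    simp
  rw [hfac] at h2
  omega

open scoped Classical in
/-- central-character vectors of distinct blocks with the normal defect group `D`, restricted to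
the classes of `p`-regular elements with defect group `D`, are linearly independent modulo `M` -/
lemma robinson_indep {p : ℕ} [Fact p.Prime] (hM : Cfsg.IsPModular p M) (D : Subgroup G)
    [D.Normal] {ι : Type*} [Fintype ι] (y : ι → G)
    (hgood : ∀ g : G, ¬ p ∣ orderOf g →
      (∃ Q : Sylow p (Subgroup.centralizer ({g} : Set G)),
        (Q : Subgroup (Subgroup.centralizer ({g} : Set G))).map
          (Subgroup.centralizer ({g} : Set G)).subtype = D) →
      ∃ i, IsConj (y i) g)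
    {β : Type*} [Fintype β] (χ : β → Cfsg.IrrCharacter G)
    (hχD : ∀ b, Cfsg.IsDefectGroup p M (Cfsg.blockOf M (χ b : G → ℂ)) D)
    (hχinj : ∀ b b', χ b' ∈ Cfsg.blockOf M (χ b : G → ℂ) → b = b')
    (c : β → Cfsg.AlgInt)
    (hc : ∀ i, MemLocalIdeal M (∑ b, (c b : ℂ) * Cfsg.centralChar (χ b : G → ℂ) (y i))) :
    ∀ b, c b ∈ M := by
  have hMp := isPrime_of_isPModular hM
  intro b₀
  set B₀ := Cfsg.blockOf M (χ b₀ : G → ℂ) with hB₀def
  have hB₀ : Cfsg.IsPBlock M B₀ := ⟨χ b₀, rfl⟩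
  have hR := isRClass_blockCoeff hMp hB₀
  rw [← memLocalIdeal_algInt_iff hMp]
  have hΞ : (∑ g : G, Cfsg.blockCoeff B₀ g *
      ∑ b, (c b : ℂ) * ((χ b : G → ℂ) g / (χ b : G → ℂ) 1)) = (c b₀ : ℂ) := by
    have e : ∀ g : G, Cfsg.blockCoeff B₀ g *
        ∑ b, (c b : ℂ) * ((χ b : G → ℂ) g / (χ b : G → ℂ) 1) =
        ∑ b, (c b : ℂ) * (Cfsg.blockCoeff B₀ g * (χ b : G → ℂ) g / (χ b : G → ℂ) 1) := by
      intro g
      rw [Finset.mul_sum]
      apply Finset.sum_congr rfl
      intro b _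
      ring
    simp_rw [e]
    rw [Finset.sum_comm]
    have e2 : ∀ b, (∑ g : G, (c b : ℂ) *
        (Cfsg.blockCoeff B₀ g * (χ b : G → ℂ) g / (χ b : G → ℂ) 1)) =
        (c b : ℂ) * (if χ b ∈ B₀ then 1 else 0) := by
      intro b
      rw [← Finset.mul_sum, ← omega_blockCoeff hMp hB₀ (χ b)]
      rfl
    simp_rw [e2]
    rw [Finset.sum_eq_single b₀]
    · rw [if_pos (mem_blockOf_self hMp _), mul_one]
    · intro b _ hb
      rw [if_neg, mul_zero]
      intro hmem
      exact hb (hχinj b₀ b hmem).symm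
    · intro h; exact absurd (Finset.mem_univ _) h
  rw [← hΞ]
  have key := sum_class_invariant_mem (MemLocalIdeal M) (memLocalIdeal_zero hMp)
    (fun a b ha hb => memLocalIdeal_add hMp ha hb)
    (fun g => Cfsg.blockCoeff B₀ g *
      ∑ b, (c b : ℂ) * ((χ b : G → ℂ) g / (χ b : G → ℂ) 1)) ?_ ?_ Finset.univ
    (fun _ _ _ => Finset.mem_univ _)
  · exact key
  · intro x h
    simp only [hR.1 h x, irrCharacter_conj_eq]
  · intro h
    have e : ((Subgroup.centralizer ({h} : Set G)).index : ℂ) * (Cfsg.blockCoeff B₀ h *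
        ∑ b, (c b : ℂ) * ((χ b : G → ℂ) h / (χ b : G → ℂ) 1)) =
        Cfsg.blockCoeff B₀ h * ∑ b, (c b : ℂ) * Cfsg.centralChar (χ b : G → ℂ) h := by
      rw [mul_left_comm, Finset.mul_sum]
      congr 1
      apply Finset.sum_congr rfl
      intro b _
      unfold Cfsg.centralChar
      ring
    rw [e]
    have hsumR : MemLocalRing M (∑ b, (c b : ℂ) * Cfsg.centralChar (χ b : G → ℂ) h) :=
      memLocalRing_sum hMp _ _ (fun b _ => memLocalRing_mul hMp
        (memLocalRing_of_algInt hMp (c b)) (memLocalRing_centralChar hMp (χ b) h))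
    by_cases ha : MemLocalIdeal M (Cfsg.blockCoeff B₀ h)
    · exact memLocalIdeal_mul_right hMp ha hsumR
    · apply memLocalIdeal_mul_left hMp (hR.2 h)
      by_cases hex : ∃ b, ¬ MemLocalIdeal M (Cfsg.centralChar (χ b : G → ℂ) h)
      · obtain ⟨b, hb⟩ := hex
        have hreg : ¬ p ∣ orderOf h := by
          intro hdiv
          apply ha
          rw [Cfsg.Agent.Lib.Helper77.blockCoeff_eq_zero_of_singular hM B₀ hB₀ hdiv]
          exact memLocalIdeal_zero hMp
        obtain ⟨g₀, hg₀, P₀, hD₀⟩ := hχD b₀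
        obtain ⟨x, Q, hQ⟩ := Cfsg.Agent.Lib.Helper77.minmax_a hM B₀ hB₀ g₀ hg₀ P₀ h ha
        rw [← hD₀, map_conj_eq_of_normal] at hQ
        obtain ⟨g₁, hg₁, P₁, hD₁⟩ := hχD b
        obtain ⟨x', Q', hQ'⟩ := Cfsg.Agent.Lib.Helper77.minmax_b hM _ ⟨χ b, rfl⟩ g₁ hg₁ P₁ h
          ⟨χ b, mem_blockOf_self hMp _, hb⟩
        rw [← hD₁, map_conj_eq_of_normal] at hQ'
        have hcard : Nat.card D ≤ Nat.card ((Q : Subgroup _).map
            (Subgroup.centralizer ({h} : Set G)).subtype) := by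
          rw [card_sylow_centralizer_map h Q, ← card_sylow_centralizer_map h Q']
          exact Subgroup.card_le_of_le hQ'
        have heq := Subgroup.eq_of_le_of_card_ge hQ hcard
        obtain ⟨i, hi⟩ := hgood h hreg ⟨Q, heq⟩
        obtain ⟨t, ht⟩ := isConj_iff.mp hi
        have hre : (∑ b, (c b : ℂ) * Cfsg.centralChar (χ b : G → ℂ) h) =
            ∑ b, (c b : ℂ) * Cfsg.centralChar (χ b : G → ℂ) (y i) := by
          apply Finset.sum_congr rfl
          intro b' _
          rw [← ht, Cfsg.Agent.Lib.Helper77.centralChar_conj]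
        rw [hre]
        exact hc i
      · push Not at hex
        exact memLocalIdeal_sum hMp _ _ (fun b _ => memLocalIdeal_mul_left hMp
          (memLocalRing_of_algInt hMp (c b)) (hex b))

/-- the degrees in a block are divisible by `p ^ (a - d)` -/
lemma pow_dvd_charDegree_of_mem (p : ℕ) [Fact p.Prime] (B : Set (Cfsg.IrrCharacter G))
    (χ : Cfsg.IrrCharacter G) (hχ : χ ∈ B) :
    p ^ ((Nat.card G).factorization p - Cfsg.blockDefect p B) ∣
      Cfsg.charDegree (χ : G → ℂ) := by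
  have hmem : (Cfsg.charDegree (χ : G → ℂ)).factorization p ∈
      ((fun χ : Cfsg.IrrCharacter G => (Cfsg.charDegree (χ : G → ℂ)).factorization p) '' B) :=
    ⟨χ, hχ, rfl⟩
  have hsInf := Nat.sInf_le hmem
  have hle : (Nat.card G).factorization p - Cfsg.blockDefect p B ≤
      (Cfsg.charDegree (χ : G → ℂ)).factorization p := by
    unfold Cfsg.blockDefect; omega
  exact (Nat.pow_dvd_pow p hle).trans (Nat.ordProj_dvd _ p)

lemma exists_sylow_of_eq {p : ℕ} {H H' : Subgroup G} (h : H = H') (D : Subgroup G)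
    (hQ : ∃ Q : Sylow p H, (Q : Subgroup H).map H.subtype = D) :
    ∃ Q : Sylow p H', (Q : Subgroup H').map H'.subtype = D := by
  subst h
  exact hQ

/-- two-element form of `robinson_vanish` -/
lemma robinson_vanish_pair {p : ℕ} [Fact p.Prime] (hM : Cfsg.IsPModular p M) (D : Subgroup G)
    (u v : G)
    (hu : ∃ S : Sylow p ↥(Subgroup.centralizer ({u} : Set G)),
      (S : Subgroup ↥(Subgroup.centralizer ({u} : Set G))).map
        (Subgroup.centralizer ({u} : Set G)).subtype = D)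
    (hv : ∃ S : Sylow p ↥(Subgroup.centralizer ({v} : Set G)),
      (S : Subgroup ↥(Subgroup.centralizer ({v} : Set G))).map
        (Subgroup.centralizer ({v} : Set G)).subtype = D)
    (χ : Cfsg.IrrCharacter G)
    (hχ : ¬ Cfsg.IsDefectGroup p M (Cfsg.blockOf M (χ : G → ℂ)) D) :
    MemLocalIdeal M (Cfsg.centralChar (χ : G → ℂ) v * (χ : G → ℂ) u⁻¹) := by
  have h := robinson_vanish hM D (r := 2) (fun k : Fin 2 => if k = 0 then u else v)
    (by
      intro k
      fin_cases k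
      · exact hu
      · exact hv) χ hχ 0 1
  simpa using h

end

end Cfsg.Agent.Lib.Helper16
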