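import Mathlib
import Cfsg.Prelude.Def_Blocks
import Cfsg.Agent.Lib.Helper16.Robinson2
import Cfsg.Agent.Lib.Helper76.PRegChar
import Cfsg.Agent.Lib.Helper76.PRegHeight
import Cfsg.Agent.Lib.Helper78.SecondMainChar
import Cfsg.Agent.Lib.Helper79.PConj
import Cfsg.Agent.Lib.Helper80.OneDegree

/-!
# Characters of central defect (Laradji)

An irreducible character `χ` whose degree has the same `p`-part as the index of a central
`p`-subgroup `D` vanishes off the elements whose `p`-part lies in `D`, and `D` is a defect group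
of its block.
-/

set_option autoImplicit false

namespace Cfsg.Agent.Lib.Helper16

open Cfsg
open scoped ComplexConjugate

section
variable {G : Type*} [Group G] [Fintype G] {M : Ideal Cfsg.AlgInt}

open scoped Classical in
/-- the norm computation: the `p`-regular elements carry exactly `|G| / |D|` of the norm -/
lemma laradji_norm (p : ℕ) [Fact p.Prime] (D : Subgroup G) (hD : IsPGroup p D)
    (hDZ : D ≤ Subgroup.center G) (χ : Cfsg.IrrCharacter G)
    (hdeg : (Cfsg.charDegree (χ : G → ℂ)).factorization p = D.index.factorization p) :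
    ((Nat.card D : ℝ) * (∑ y : G, if p ∣ orderOf y then 0 else Complex.normSq ((χ : G → ℂ) y)) =
      (Nat.card G : ℝ)) ∧
    ∀ g : G, (∀ z ∈ D, ∀ y : G, ¬ p ∣ orderOf y → z * y ≠ g) → (χ : G → ℂ) g = 0 := by
  have hp := (Fact.out : p.Prime)
  obtain ⟨d, hd⟩ := IsPGroup.iff_card.mp hD
  obtain ⟨a, ha⟩ : ∃ a, a = (Nat.card G).factorization p := ⟨_, rfl⟩
  have hfac : a = d + D.index.factorization p := by
    rw [ha, ← Subgroup.card_mul_index D, hd,
      Nat.factorization_mul (pow_pos hp.pos _).ne' Subgroup.index_ne_zero_of_finite,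
      Nat.Prime.factorization_pow hp]
    simp
  have hG0 : (Nat.card G : ℝ) ≠ 0 := by exact_mod_cast Nat.card_pos.ne'
  have hGpos : (0 : ℝ) < (Nat.card G : ℝ) := by exact_mod_cast Nat.card_pos
  set s0 : ℝ := ∑ y : G, if p ∣ orderOf y then 0 else Complex.normSq ((χ : G → ℂ) y) with hs0
  -- the inner product with the truncation is a positive integer
  have hgen := Cfsg.Agent.Lib.Helper76.isGen_pRegular p χ
  rw [← ha, hdeg, show a - D.index.factorization p = d by omega, ← hd] at hgen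
  obtain ⟨n, hn⟩ := Cfsg.Agent.Lib.Helper79.classInner_genChar_int hgen χ.2
  have hinner : Cfsg.classInner (fun x : G => if p ∣ orderOf x then (0 : ℂ) else
      ((Nat.card D : ℕ) : ℂ) * (χ : G → ℂ) x) (χ : G → ℂ) =
      (((Nat.card D : ℝ) * s0 / (Nat.card G : ℝ) : ℝ) : ℂ) := by
    unfold Cfsg.classInner
    rw [hs0]
    push_cast
    conv_lhs => rw [Finset.mul_sum]
    conv_rhs => rw [Finset.mul_sum, Finset.sum_div]
    apply Finset.sum_congr rfl
    intro y _
    split_ifs
    · simp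
    · rw [Complex.normSq_eq_conj_mul_self]
      field_simp
  rw [hinner] at hn
  have hn' : (Nat.card D : ℝ) * s0 / (Nat.card G : ℝ) = (n : ℝ) := by exact_mod_cast hn
  have hterm_nonneg : ∀ y : G,
      (0 : ℝ) ≤ if p ∣ orderOf y then 0 else Complex.normSq ((χ : G → ℂ) y) := by
    intro y
    split_ifs
    · exact le_refl _
    · exact Complex.normSq_nonneg _
  have hspos : 0 < s0 := by
    have h1 : (if p ∣ orderOf (1 : G) then (0 : ℝ) else Complex.normSq ((χ : G → ℂ) 1)) ≤ s0 :=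
      Finset.single_le_sum (fun y _ => hterm_nonneg y) (Finset.mem_univ (1 : G))
    rw [if_neg (by rw [orderOf_one]; exact hp.one_lt.ne' ∘ Nat.dvd_one.mp)] at h1
    exact lt_of_lt_of_le (Complex.normSq_pos.mpr (irr_one_ne_zero χ)) h1
  have hDpos : (0 : ℝ) < (Nat.card D : ℝ) := by exact_mod_cast Nat.card_pos
  have hnpos : (0 : ℝ) < (n : ℝ) := by
    rw [← hn']
    exact div_pos (mul_pos hDpos hspos) hGpos
  have hn1 : (1 : ℝ) ≤ (n : ℝ) := by
    have : (0 : ℤ) < n := by exact_mod_cast hnpos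
    exact_mod_cast this
  have hge : (Nat.card G : ℝ) ≤ (Nat.card D : ℝ) * s0 := by
    rw [← hn'] at hn1
    rwa [le_div_iff₀ hGpos, one_mul] at hn1
  -- the total norm
  have htot : ∑ g : G, Complex.normSq ((χ : G → ℂ) g) = (Nat.card G : ℝ) := by
    have h := Cfsg.Agent.Lib.Helper3.classInner_irr_self χ.2
    unfold Cfsg.classInner at h
    have hG0' : (Nat.card G : ℂ) ≠ 0 := by exact_mod_cast Nat.card_pos.ne'
    have h2 : (∑ g : G, (χ : G → ℂ) g * conj ((χ : G → ℂ) g)) = (Nat.card G : ℂ) := by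
      field_simp at h
      exact h
    have h3 : ((∑ g : G, Complex.normSq ((χ : G → ℂ) g) : ℝ) : ℂ) = ((Nat.card G : ℝ) : ℂ) := by
      push_cast
      rw [← h2]
      apply Finset.sum_congr rfl
      intro g _
      rw [Complex.normSq_eq_conj_mul_self, mul_comm]
    exact_mod_cast h3
  -- the injection `(z, y) ↦ z * y`
  set T : Finset (D × G) :=
    (Finset.univ : Finset D) ×ˢ (Finset.univ.filter (fun y : G => ¬ p ∣ orderOf y)) with hT
  have hppart : ∀ (z : D) (y : G), ¬ p ∣ orderOf y → Cfsg.IsPPart p ((z : G) * y) (z : G) := by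
    intro z y hy
    refine ⟨y, rfl, ?_, ?_, hy⟩
    · exact (Subgroup.mem_center_iff.mp (hDZ z.2) y).symm
    · obtain ⟨k, hk⟩ := (IsPGroup.iff_orderOf.mp hD) z
      exact ⟨k, by rw [← hk, Subgroup.orderOf_coe]⟩
  have hinj : Set.InjOn (fun zy : D × G => (zy.1 : G) * zy.2) (T : Set (D × G)) := by
    rintro ⟨z, y⟩ h1 ⟨z', y'⟩ h2 heq
    simp only [hT, Finset.coe_product, Finset.coe_univ, Finset.coe_filter, Finset.mem_univ,
      true_and, Set.mem_prod, Set.mem_univ, Set.mem_setOf_eq] at h1 h2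
    have heq' : (z : G) * y = (z' : G) * y' := heq
    have hz : (z : G) = (z' : G) := by
      apply Cfsg.Agent.Lib.Helper78.isPPart_unique hp (hppart z y h1)
      rw [heq']
      exact hppart z' y' h2
    have hy : y = y' := by
      rw [hz] at heq'
      exact mul_left_cancel heq'
    exact Prod.ext (Subtype.ext hz) hy
  have himage : ∑ g ∈ T.image (fun zy : D × G => (zy.1 : G) * zy.2),
      Complex.normSq ((χ : G → ℂ) g) = (Nat.card D : ℝ) * s0 := by
    rw [Finset.sum_image hinj, hT, Finset.sum_product]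
    have hz : ∀ z : D, (∑ y ∈ Finset.univ.filter (fun y : G => ¬ p ∣ orderOf y),
        Complex.normSq ((χ : G → ℂ) ((z : G) * y))) = s0 := by
      intro z
      rw [hs0, Finset.sum_filter]
      apply Finset.sum_congr rfl
      intro y _
      by_cases hy : p ∣ orderOf y
      · simp [hy]
      · rw [if_pos hy, if_neg hy]
        obtain ⟨ω, hω1, hω2⟩ := Cfsg.Agent.Lib.Helper80.central_char_mul χ.2 (hDZ z.2)
        rw [hω2, Complex.normSq_mul]
        have hnorm : ‖ω‖ = 1 :=
          Complex.norm_eq_one_of_pow_eq_one hω1 (orderOf_pos (z : G)).ne'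
        rw [Complex.normSq_eq_norm_sq, hnorm]
        simp
    simp_rw [hz]
    rw [Finset.sum_const, Finset.card_univ, nsmul_eq_mul, Nat.card_eq_fintype_card]
  have hle : ∑ g ∈ T.image (fun zy : D × G => (zy.1 : G) * zy.2),
      Complex.normSq ((χ : G → ℂ) g) ≤ ∑ g : G, Complex.normSq ((χ : G → ℂ) g) :=
    Finset.sum_le_sum_of_subset_of_nonneg (Finset.subset_univ _)
      (fun g _ _ => Complex.normSq_nonneg _)
  rw [himage, htot] at hle
  have heq : (Nat.card D : ℝ) * s0 = (Nat.card G : ℝ) := le_antisymm hle hge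
  refine ⟨heq, ?_⟩
  intro g hg
  have hgnot : g ∉ T.image (fun zy : D × G => (zy.1 : G) * zy.2) := by
    intro hmem
    obtain ⟨⟨z, y⟩, hzy, rfl⟩ := Finset.mem_image.mp hmem
    simp only [hT, Finset.mem_product, Finset.mem_univ, Finset.mem_filter, true_and] at hzy
    exact hg z z.2 y hzy rfl
  have hsplit := Finset.sum_sdiff (Finset.subset_univ
    (T.image (fun zy : D × G => (zy.1 : G) * zy.2))) (f := fun g => Complex.normSq ((χ : G → ℂ) g))
  rw [himage, htot, heq] at hsplit
  have hzero : ∑ g ∈ Finset.univ \ T.image (fun zy : D × G => (zy.1 : G) * zy.2),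
      Complex.normSq ((χ : G → ℂ) g) = 0 := by linarith
  have := (Finset.sum_eq_zero_iff_of_nonneg (fun g _ => Complex.normSq_nonneg _)).mp hzero g
    (Finset.mem_sdiff.mpr ⟨Finset.mem_univ g, hgnot⟩)
  exact Complex.normSq_eq_zero.mp this

/-- Laradji: the central `p`-subgroup `D` is a defect group of the block of `χ` -/
lemma laradji_defect {p : ℕ} [Fact p.Prime] (hM : Cfsg.IsPModular p M) (D : Subgroup G)
    (hD : IsPGroup p D) (hDZ : D ≤ Subgroup.center G) (χ : Cfsg.IrrCharacter G)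
    (hdeg : (Cfsg.charDegree (χ : G → ℂ)).factorization p = D.index.factorization p) :
    Cfsg.IsDefectGroup p M (Cfsg.blockOf M (χ : G → ℂ)) D := by
  classical
  have hMp := isPrime_of_isPModular hM
  have hp := (Fact.out : p.Prime)
  obtain ⟨hnorm, -⟩ := laradji_norm p D hD hDZ χ hdeg
  obtain ⟨d, hd⟩ := IsPGroup.iff_card.mp hD
  obtain ⟨a, ha⟩ : ∃ a, a = (Nat.card G).factorization p := ⟨_, rfl⟩
  have hfac : a = d + D.index.factorization p := by
    rw [ha, ← Subgroup.card_mul_index D, hd,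
      Nat.factorization_mul (pow_pos hp.pos _).ne' Subgroup.index_ne_zero_of_finite,
      Nat.Prime.factorization_pow hp]
    simp
  set B := Cfsg.blockOf M (χ : G → ℂ) with hBdef
  have hB : Cfsg.IsPBlock M B := ⟨χ, rfl⟩
  have hχB : χ ∈ B := mem_blockOf_self hMp χ
  have hG0 : (Nat.card G : ℂ) ≠ 0 := by exact_mod_cast Nat.card_pos.ne'
  have hp0 : (p : ℂ) ≠ 0 := by exact_mod_cast hp.ne_zero
  have hinner : Cfsg.classInner (fun x : G => if p ∣ orderOf x then (0 : ℂ) else
      ((p ^ (Nat.card G).factorization p : ℕ) : ℂ) * (χ : G → ℂ) x) (χ : G → ℂ) =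
      ((p ^ (a - d) : ℕ) : ℂ) := by
    unfold Cfsg.classInner
    have h1 : (∑ g : G, (if p ∣ orderOf g then (0 : ℂ) else
        ((p ^ (Nat.card G).factorization p : ℕ) : ℂ) * (χ : G → ℂ) g) * conj ((χ : G → ℂ) g)) =
        ((p ^ a : ℕ) : ℂ) * ((∑ y : G,
          if p ∣ orderOf y then 0 else Complex.normSq ((χ : G → ℂ) y) : ℝ) : ℂ) := by
      rw [← ha]
      push_cast
      rw [Finset.mul_sum]
      apply Finset.sum_congr rfl
      intro y _
      split_ifs
      · simp
      · rw [Complex.normSq_eq_conj_mul_self]; ring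
    rw [h1]
    have hD0 : (Nat.card D : ℂ) ≠ 0 := by exact_mod_cast Nat.card_pos.ne'
    have hs : ((∑ y : G, if p ∣ orderOf y then 0 else Complex.normSq ((χ : G → ℂ) y) : ℝ) : ℂ) =
        (Nat.card G : ℂ) / (Nat.card D : ℂ) := by
      rw [eq_div_iff hD0, mul_comm]
      exact_mod_cast hnorm
    rw [hs, hd]
    have hpa : (p : ℂ) ^ a = (p : ℂ) ^ (a - d) * (p : ℂ) ^ d := by
      rw [← pow_add]; congr 1; omega
    push_cast
    rw [hpa]
    field_simp
  have hom := Cfsg.Agent.Lib.Helper76.inner_mul_eq_omega p χ χ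
  rw [hinner] at hom
  obtain ⟨h1, hpos, -⟩ := Cfsg.Agent.Lib.Helper79.irr_charDegree χ.2
  have hb : (Cfsg.charDegree (χ : G → ℂ)).factorization p = a - d := by rw [hdeg]; omega
  have e1 := Nat.ordProj_mul_ordCompl_eq_self (Cfsg.charDegree (χ : G → ℂ)) p
  have n1 : ¬ p ∣ Cfsg.charDegree (χ : G → ℂ) /
      p ^ (Cfsg.charDegree (χ : G → ℂ)).factorization p := Nat.not_dvd_ordCompl hp hpos.ne'
  rw [hb] at e1 n1
  have n2 := Cfsg.Agent.Lib.Helper76.not_dvd_card_div p G
  obtain ⟨c, hc⟩ : ∃ c, c = Cfsg.charDegree (χ : G → ℂ) / p ^ (a - d) := ⟨_, rfl⟩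
  obtain ⟨g', hg'⟩ : ∃ g', g' = Nat.card G / p ^ (Nat.card G).factorization p := ⟨_, rfl⟩
  rw [← hc] at e1 n1
  rw [← hg'] at hom n2
  have hnot : ¬ MemLocalIdeal M
      (omega (χ : G → ℂ) (Cfsg.Agent.Lib.Helper76.pRegConj p (χ : G → ℂ))) := by
    intro hmem
    have hpad : ((p : ℂ) ^ (a - d)) ≠ 0 := pow_ne_zero _ hp0
    have h2 : (g' : ℂ) = (c : ℂ) *
        omega (χ : G → ℂ) (Cfsg.Agent.Lib.Helper76.pRegConj p (χ : G → ℂ)) := by
      rw [← e1] at hom
      push_cast at hom
      apply mul_left_cancel₀ hpad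
      linear_combination hom
    have h3 : MemLocalIdeal M (g' : ℂ) := by
      rw [h2]
      exact memLocalIdeal_mul_left hMp (memLocalRing_natCast hMp c) hmem
    exact n2 ((memLocalIdeal_natCast_iff hM g').mp h3)
  have h0 : Cfsg.blockHeight p B (χ : G → ℂ) = 0 :=
    (Cfsg.Agent.Lib.Helper76.height_zero_iff hM B hB χ hχB).mpr hnot
  have hdefect : Cfsg.blockDefect p B = d := by
    have hmem : (Cfsg.charDegree (χ : G → ℂ)).factorization p ∈
        ((fun χ : Cfsg.IrrCharacter G => (Cfsg.charDegree (χ : G → ℂ)).factorization p) '' B) :=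
      ⟨χ, hχB, rfl⟩
    have hsInf := Nat.sInf_le hmem
    unfold Cfsg.blockHeight at h0
    unfold Cfsg.blockDefect
    rw [← ha]
    omega
  obtain ⟨g, hg⟩ := Cfsg.Agent.Lib.Helper77.exists_isDefectClass hMp B hB
  obtain ⟨Q, hQ⟩ := Cfsg.Agent.Lib.Helper77.exists_sylow_centralizer_ge p D hD g
    (fun r hr => (Subgroup.mem_center_iff.mp (hDZ hr) g).symm)
  refine ⟨g, hg, Q, ?_⟩
  apply Subgroup.eq_of_le_of_card_ge hQ
  rw [Cfsg.Agent.Lib.Helper77.card_isDefectGroup hM B hB _ ⟨g, hg, Q, rfl⟩, hdefect, hd]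

end

end Cfsg.Agent.Lib.Helper16
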