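import Mathlib
import Cfsg.Prelude.Def_Blocks
import Cfsg.Prelude.Def_BrauerPairs
import Cfsg.Agent.Lib.Helper16.Laradji
import Cfsg.Agent.Lib.Helper77.LocalPairs
import Cfsg.Agent.Lib.Helper77.SubPairs
import Cfsg.Agent.Lib.Helper77.Osima
import Cfsg.Agent.Lib.Helper77.Degree
import Cfsg.Agent.Lib.Helper82.Ito
import Cfsg.Agent.Lib.Helper80.OneDegree

/-!
# Maximal Brauer pairs and characters of central defect

For a maximal Brauer pair `(Q, e)` the centre `Z(Q) = Q ∩ C_G(Q)` is a defect group of `e`;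
conversely a pair whose block has the central defect group `Z(Q)` and whose `p`-stabilizer lies in
`Q C_G(Q)` is maximal.
-/

set_option autoImplicit false

namespace Cfsg.Agent.Lib.Helper16

open Cfsg
open scoped ComplexConjugate

section
variable {G : Type*} [Group G]

/-- elements of `Q C_G(Q)` are products -/
lemma exists_mul_of_mem_sup_centralizer (Q : Subgroup G) {x : G}
    (hx : x ∈ Q ⊔ Subgroup.centralizer (Q : Set G)) :
    ∃ q ∈ Q, ∃ c ∈ Subgroup.centralizer (Q : Set G), x = q * c := by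
  rw [Subgroup.sup_eq_closure] at hx
  induction hx using Subgroup.closure_induction with
  | mem x hx =>
    rcases hx with h | h
    · exact ⟨x, h, 1, one_mem _, (mul_one x).symm⟩
    · exact ⟨1, one_mem _, x, h, (one_mul x).symm⟩
  | one => exact ⟨1, one_mem _, 1, one_mem _, (mul_one 1).symm⟩
  | mul x y _ _ hx hy =>
    obtain ⟨q₁, hq₁, c₁, hc₁, rfl⟩ := hx
    obtain ⟨q₂, hq₂, c₂, hc₂, rfl⟩ := hy
    refine ⟨q₁ * q₂, mul_mem hq₁ hq₂, c₁ * c₂, mul_mem hc₁ hc₂, ?_⟩
    have h := Subgroup.mem_centralizer_iff.mp hc₁ q₂ hq₂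
    calc q₁ * c₁ * (q₂ * c₂) = q₁ * (c₁ * q₂) * c₂ := by group
      _ = q₁ * (q₂ * c₁) * c₂ := by rw [h]
      _ = q₁ * q₂ * (c₁ * c₂) := by group
  | inv x _ hx =>
    obtain ⟨q, hq, c, hc, rfl⟩ := hx
    refine ⟨q⁻¹, inv_mem hq, c⁻¹, inv_mem hc, ?_⟩
    have h := Subgroup.mem_centralizer_iff.mp hc q hq
    rw [← mul_inv_rev, ← h]

/-- elements of `Q C_G(Q)` stabilize every set of characters of `C_G(Q)` -/
lemma stabilizesBlock_of_mem_sup_centralizer [Finite G] (Q : Subgroup G)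
    (e : Set (Cfsg.IrrCharacter (Subgroup.centralizer (Q : Set G)))) {x : G}
    (hx : x ∈ Q ⊔ Subgroup.centralizer (Q : Set G)) :
    Cfsg.StabilizesBlock (Subgroup.centralizer (Q : Set G)) e x := by
  have hxN : x ∈ Subgroup.normalizer (Q : Set G) :=
    (sup_le Subgroup.le_normalizer (Subgroup.centralizer_le_normalizer (Q : Set G))) hx
  obtain ⟨q, hq, c, hc, rfl⟩ := exists_mul_of_mem_sup_centralizer Q hx
  refine ⟨Cfsg.Agent.Lib.Helper77.normalizer_le_normalizer_centralizer Q hxN,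
    fun χ hχ => ⟨χ, hχ, ?_⟩⟩
  intro k k' hk
  have hck : c * (k : G) * c⁻¹ ∈ Subgroup.centralizer (Q : Set G) :=
    mul_mem (mul_mem hc k.2) (inv_mem hc)
  have h1 := Subgroup.mem_centralizer_iff.mp hck q hq
  have hk' : k' = ⟨c, hc⟩ * k * (⟨c, hc⟩ : Subgroup.centralizer (Q : Set G))⁻¹ := by
    apply Subtype.ext
    rw [hk]
    push_cast
    calc q * c * (k : G) * (q * c)⁻¹ = q * (c * (k : G) * c⁻¹) * q⁻¹ := by group
      _ = c * (k : G) * c⁻¹ * q * q⁻¹ := by rw [h1]
      _ = c * (k : G) * c⁻¹ := by group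
  rw [hk']
  exact irrCharacter_conj_eq χ _ k

end

section
variable {K : Type*} [Group K] [Fintype K] {M : Ideal Cfsg.AlgInt}

/-- an irreducible character that is not constant on a central subgroup sums to zero over it -/
lemma sum_central_eq_zero (θ : Cfsg.IrrCharacter K) (Z : Subgroup K)
    (hZ : Z ≤ Subgroup.center K) [Fintype Z] {z₀ : K} (hz₀ : z₀ ∈ Z)
    (hne : (θ : K → ℂ) z₀ ≠ (θ : K → ℂ) 1) : ∑ z : Z, (θ : K → ℂ) (z : K) = 0 := by
  obtain ⟨ω, -, hω⟩ := Cfsg.Agent.Lib.Helper80.central_char_mul θ.2 (hZ hz₀)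
  have hω1 : ω ≠ 1 := by
    intro h
    apply hne
    have := hω 1
    rw [mul_one, h, one_mul] at this
    exact this
  have h1 : ∑ z : Z, (θ : K → ℂ) (z : K) = ∑ z : Z, (θ : K → ℂ) (z₀ * (z : K)) := by
    symm
    apply Fintype.sum_equiv (Equiv.mulLeft (⟨z₀, hz₀⟩ : Z))
    intro z
    rfl
  have h2 : ∑ z : Z, (θ : K → ℂ) (z₀ * (z : K)) = ω * ∑ z : Z, (θ : K → ℂ) (z : K) := by
    rw [Finset.mul_sum]
    apply Finset.sum_congr rfl
    intro z _
    exact hω _
  rw [h2] at h1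
  have h3 : (1 - ω) * ∑ z : Z, (θ : K → ℂ) (z : K) = 0 := by
    rw [sub_mul, one_mul, ← h1, sub_self]
  rcases mul_eq_zero.mp h3 with h | h
  · exact absurd (sub_eq_zero.mp h).symm hω1
  · exact h

/-- every block contains a character that is constant on a given central `p`-subgroup -/
lemma exists_trivial_on_central {p : ℕ} [Fact p.Prime] (hM : Cfsg.IsPModular p M)
    {e : Set (Cfsg.IrrCharacter K)} (he : Cfsg.IsPBlock M e) (Z : Subgroup K)
    (hZp : IsPGroup p Z) (hZ : Z ≤ Subgroup.center K) :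
    ∃ θ ∈ e, ∀ z ∈ Z, (θ : K → ℂ) z = (θ : K → ℂ) 1 := by
  classical
  have hMp := isPrime_of_isPModular hM
  have hp := (Fact.out : p.Prime)
  haveI := Cfsg.Agent.Lib.Helper77.irr_finite K
  haveI : Fintype (Cfsg.IrrCharacter K) := Fintype.ofFinite _
  by_contra hcon
  push Not at hcon
  -- the sum of the idempotent coefficients over `Z`
  have hsum : ∑ z : Z, Cfsg.blockCoeff e (z : K) = 0 := by
    unfold Cfsg.blockCoeff
    rw [← Finset.mul_sum]
    have h1 : ∀ z : Z, ∑ᶠ χ ∈ e, (χ : K → ℂ) 1 * conj ((χ : K → ℂ) (z : K)) =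
        ∑ χ : Cfsg.IrrCharacter K, if χ ∈ e then (χ : K → ℂ) 1 * conj ((χ : K → ℂ) (z : K))
          else 0 := fun z => finsum_mem_eq_sum_ite e _
    rw [Finset.sum_congr rfl (fun z _ => h1 z), Finset.sum_comm]
    have h2 : ∀ χ : Cfsg.IrrCharacter K,
        (∑ z : Z, if χ ∈ e then (χ : K → ℂ) 1 * conj ((χ : K → ℂ) (z : K)) else 0) = 0 := by
      intro χ
      by_cases hχ : χ ∈ e
      · simp only [if_pos hχ]
        rw [← Finset.mul_sum, ← map_sum]
        obtain ⟨z₀, hz₀, hne⟩ := hcon χ hχ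
        rw [sum_central_eq_zero χ Z hZ hz₀ hne, map_zero, mul_zero]
      · simp only [if_neg hχ]
        exact Finset.sum_const_zero
    rw [Finset.sum_congr rfl (fun χ _ => h2 χ), Finset.sum_const_zero, mul_zero]
  have hsing : ∀ z : Z, z ≠ 1 → Cfsg.blockCoeff e (z : K) = 0 := by
    intro z hz
    apply Cfsg.Agent.Lib.Helper77.blockCoeff_eq_zero_of_singular hM e he
    obtain ⟨k, hk⟩ := (IsPGroup.iff_orderOf.mp hZp) z
    rw [Subgroup.orderOf_coe, hk]
    have hk0 : k ≠ 0 := by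
      rintro rfl
      rw [pow_zero, orderOf_eq_one_iff] at hk
      exact hz hk
    exact dvd_pow_self p hk0
  have hone : ∑ z : Z, Cfsg.blockCoeff e (z : K) = Cfsg.blockCoeff e 1 := by
    rw [Finset.sum_eq_single (1 : Z)]
    · rfl
    · intro z _ hz
      exact hsing z hz
    · intro h
      exact absurd (Finset.mem_univ _) h
  rw [hone] at hsum
  -- but the coefficient at `1` is positive
  obtain ⟨θ₀, hθ₀⟩ := IsPBlock.nonempty hMp he
  unfold Cfsg.blockCoeff at hsum
  rw [finsum_mem_eq_sum_ite e] at hsum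
  have hK : (Nat.card K : ℂ) ≠ 0 := by
    exact_mod_cast Nat.card_pos.ne'
  rcases mul_eq_zero.mp hsum with h | h
  · exact hK (inv_eq_zero.mp h)
  · have h3 : ∀ χ : Cfsg.IrrCharacter K,
        (if χ ∈ e then (χ : K → ℂ) 1 * conj ((χ : K → ℂ) 1) else 0) =
          (((if χ ∈ e then (Cfsg.charDegree (χ : K → ℂ) : ℝ) ^ 2 else 0 : ℝ)) : ℂ) := by
      intro χ
      split_ifs
      · rw [(Cfsg.Agent.Lib.Helper79.irr_charDegree χ.2).1]
        simp [sq]
      · simp
    rw [Finset.sum_congr rfl (fun χ _ => h3 χ), ← Complex.ofReal_sum] at h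
    have h4 : (∑ χ : Cfsg.IrrCharacter K,
        (if χ ∈ e then (Cfsg.charDegree (χ : K → ℂ) : ℝ) ^ 2 else 0 : ℝ)) = 0 := by
      exact_mod_cast h
    have h5 := (Finset.sum_eq_zero_iff_of_nonneg (fun χ _ => by
      split_ifs
      · positivity
      · exact le_rfl)).mp h4 θ₀ (Finset.mem_univ _)
    rw [if_pos hθ₀] at h5
    have h6 := (Cfsg.Agent.Lib.Helper79.irr_charDegree θ₀.2).2.1
    have h7 : (Cfsg.charDegree (θ₀ : K → ℂ) : ℝ) = 0 := by
      exact pow_eq_zero_iff (two_ne_zero) |>.mp h5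
    have h8 : Cfsg.charDegree (θ₀ : K → ℂ) = 0 := by exact_mod_cast h7
    omega

end

section
variable {G : Type*} [Group G] [Fintype G] {M : Ideal Cfsg.AlgInt}

/-- for a maximal Brauer pair `(Q, e)`, the centre `Q ∩ C_G(Q)` of `Q` is a defect group of `e` -/
lemma isDefectGroup_center_of_isMaximalBrauerPair {p : ℕ} [Fact p.Prime]
    (hM : Cfsg.IsPModular p M) {B : Set (Cfsg.IrrCharacter G)} {Q : Subgroup G}
    {e : Set (Cfsg.IrrCharacter (Subgroup.centralizer (Q : Set G)))}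
    (hmax : Cfsg.IsMaximalBrauerPair p M B Q e) :
    Cfsg.IsDefectGroup p M e
      ((Q ⊓ Subgroup.centralizer (Q : Set G)).subgroupOf (Subgroup.centralizer (Q : Set G))) := by
  have hMp := isPrime_of_isPModular hM
  have he : Cfsg.IsBrauerPair p M Q e := hmax.1.1
  obtain ⟨D, hD, hZD⟩ := Cfsg.Agent.Lib.Helper77.exists_isDefectGroup_centralizer_ge hM hmax le_rfl
    Relation.ReflTransGen.refl he.2
  have hD0 := hD
  have hDZ : D ≤ (Q ⊓ Subgroup.centralizer (Q : Set G)).subgroupOf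
      (Subgroup.centralizer (Q : Set G)) := by
    have hD'C : D.map (Subgroup.centralizer (Q : Set G)).subtype ≤
        Subgroup.centralizer (Q : Set G) := by
      rintro _ ⟨d, -, rfl⟩
      exact d.2
    obtain ⟨y, hy, S, hS⟩ := hD
    have hDp : IsPGroup p D := by
      rw [hS]
      exact S.2.map _
    have hD'p : IsPGroup p (D.map (Subgroup.centralizer (Q : Set G)).subtype) := hDp.map _
    have hRN : Q ⊔ D.map (Subgroup.centralizer (Q : Set G)).subtype ≤
        Subgroup.normalizer (Q : Set G) :=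
      sup_le Subgroup.le_normalizer (hD'C.trans (Subgroup.centralizer_le_normalizer _))
    have hRp : IsPGroup p (Q ⊔ D.map (Subgroup.centralizer (Q : Set G)).subtype : Subgroup G) :=
      IsPGroup.to_sup_of_normal_left' he.1 hD'p
        (hD'C.trans (Subgroup.centralizer_le_normalizer _))
    have hstab : ∀ x ∈ Q ⊔ D.map (Subgroup.centralizer (Q : Set G)).subtype,
        Cfsg.StabilizesBlock (Subgroup.centralizer (Q : Set G)) e x := fun x hx =>
      stabilizesBlock_of_mem_sup_centralizer Q e ((sup_le_sup_left hD'C Q) hx)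
    have hyR : (y : G) ∈ Subgroup.centralizer
        ((Q ⊔ D.map (Subgroup.centralizer (Q : Set G)).subtype : Subgroup G) : Set G) := by
      have hle : Q ⊔ D.map (Subgroup.centralizer (Q : Set G)).subtype ≤
          Subgroup.centralizer ({(y : G)} : Set G) := by
        apply sup_le
        · intro q hq
          rw [Subgroup.mem_centralizer_singleton_iff]
          exact Subgroup.mem_centralizer_iff.mp y.2 q hq
        · rintro _ ⟨d, hd, rfl⟩
          rw [hS] at hd
          obtain ⟨d', -, rfl⟩ := hd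
          have h1 := Subgroup.mem_centralizer_singleton_iff.mp d'.2
          rw [Subgroup.mem_centralizer_singleton_iff]
          exact congrArg Subtype.val h1
      rw [Subgroup.mem_centralizer_iff]
      intro r hr
      exact Subgroup.mem_centralizer_singleton_iff.mp (hle hr)
    have hne : ¬ Cfsg.MemLocalIdeal M (Cfsg.Agent.Lib.Helper77.ext0
        (Subgroup.centralizer (Q : Set G)) (Cfsg.blockCoeff e) (y : G)) := by
      rw [Cfsg.Agent.Lib.Helper77.ext0_of_mem _ _ y.2]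
      exact hy.2.1
    obtain ⟨g, hns⟩ := Cfsg.Agent.Lib.Helper77.exists_isNormalSubpair_of_not_memLocalIdeal hM he
      hRp le_sup_left hRN hstab hyR hne
    have hBR := Cfsg.Agent.Lib.Helper77.isBrauerPairOf_of_isNormalSubpair hM hns hmax.1
    have hRQ : Q ⊔ D.map (Subgroup.centralizer (Q : Set G)).subtype = Q :=
      hmax.2 _ g hBR (Relation.ReflTransGen.single hns)
    intro d hd
    rw [Subgroup.mem_subgroupOf]
    have hdR : (d : G) ∈ Q ⊔ D.map (Subgroup.centralizer (Q : Set G)).subtype :=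
      Subgroup.mem_sup_right ⟨d, hd, rfl⟩
    exact ⟨hRQ.le hdR, d.2⟩
  rw [le_antisymm hZD hDZ]
  exact hD0

/-- a Brauer pair `(Q, e)` of `B` for which the centre of `Q` is a defect group of `e` and whose
stabilizing `p`-elements lie in `Q C_G(Q)` is a maximal Brauer pair of `B` -/
lemma isMaximalBrauerPair_of_isDefectGroup_center {p : ℕ} [Fact p.Prime]
    (hM : Cfsg.IsPModular p M) {B : Set (Cfsg.IrrCharacter G)} {Q : Subgroup G}
    {e : Set (Cfsg.IrrCharacter (Subgroup.centralizer (Q : Set G)))}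
    (hB : Cfsg.IsBrauerPairOf p M B Q e)
    (hZ : Cfsg.IsDefectGroup p M e
      ((Q ⊓ Subgroup.centralizer (Q : Set G)).subgroupOf (Subgroup.centralizer (Q : Set G))))
    (hc : ∀ g : G, g ∈ Subgroup.normalizer (Q : Set G) →
      Cfsg.StabilizesBlock (Subgroup.centralizer (Q : Set G)) e g →
      (∃ k : ℕ, orderOf g = p ^ k) → g ∈ Q ⊔ Subgroup.centralizer (Q : Set G)) :
    Cfsg.IsMaximalBrauerPair p M B Q e := by
  have hMp := isPrime_of_isPModular hM
  have hp := (Fact.out : p.Prime)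
  have he := hB.1
  refine ⟨hB, fun R g hRg hle => ?_⟩
  by_contra hne
  have hQR : Q ≤ R := Cfsg.Agent.Lib.Helper77.subpairLE_le hle
  have hRp : IsPGroup p R := hRg.1.1
  obtain ⟨x, hxR, hxN, hxQ⟩ :=
    Cfsg.Agent.Lib.Helper77.exists_mem_normalizer_not_mem hRp hQR (Ne.symm hne)
  obtain ⟨g₁, hns, -⟩ := Cfsg.Agent.Lib.Helper77.exists_isNormalSubpair_of_subpairLE hM hRg.1 hle
    (le_inf hQR Subgroup.le_normalizer) inf_le_left inf_le_right
  obtain ⟨c, hc1, hcne⟩ :=
    Cfsg.Agent.Lib.Helper77.exists_not_memLocalIdeal_of_isNormalSubpair hMp hns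
  have hcQ : c ∈ Subgroup.centralizer (Q : Set G) :=
    Subgroup.centralizer_le (le_inf hQR Subgroup.le_normalizer) hc1
  rw [Cfsg.Agent.Lib.Helper77.ext0_of_mem _ _ hcQ] at hcne
  haveI : Fintype (Subgroup.centralizer (Q : Set G)) := Fintype.ofFinite _
  have hR₁p : IsPGroup p (R ⊓ Subgroup.normalizer (Q : Set G) : Subgroup G) :=
    hRp.to_le inf_le_left
  have hcc : (⟨c, hcQ⟩ : Subgroup.centralizer (Q : Set G)) ∈ Subgroup.centralizer
      (((R ⊓ Subgroup.normalizer (Q : Set G)).subgroupOf (Subgroup.centralizer (Q : Set G)) :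
        Subgroup (Subgroup.centralizer (Q : Set G))) : Set (Subgroup.centralizer (Q : Set G))) := by
    rw [Subgroup.mem_centralizer_iff]
    intro r hr
    apply Subtype.ext
    exact Subgroup.mem_centralizer_iff.mp hc1 (r : G) hr
  obtain ⟨D, hD, hRD⟩ := Cfsg.Agent.Lib.Helper77.exists_isDefectGroup_ge hM he.2
    ((R ⊓ Subgroup.normalizer (Q : Set G)).subgroupOf (Subgroup.centralizer (Q : Set G)))
    (hR₁p.comap_subtype) hcc hcne
  obtain ⟨s, hs⟩ := Cfsg.Agent.Lib.Helper77.isDefectGroup_conj hM e he.2 hZ hD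
  have hDZ : D = (Q ⊓ Subgroup.centralizer (Q : Set G)).subgroupOf
      (Subgroup.centralizer (Q : Set G)) := by
    rw [hs]
    have hcomm : ∀ z ∈ (Q ⊓ Subgroup.centralizer (Q : Set G)).subgroupOf
        (Subgroup.centralizer (Q : Set G)), s * z * s⁻¹ = z := by
      intro z hz
      have hzQ : (z : G) ∈ Q := (Subgroup.mem_subgroupOf.mp hz).1
      have h1 := Subgroup.mem_centralizer_iff.mp s.2 (z : G) hzQ
      apply Subtype.ext
      push_cast
      rw [← h1]
      group
    ext d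
    constructor
    · rintro ⟨z, hz, rfl⟩
      change s * z * s⁻¹ ∈ _
      rw [hcomm z hz]
      exact hz
    · intro hd
      exact ⟨d, hd, hcomm d hd⟩
  have hxs : Cfsg.StabilizesBlock (Subgroup.centralizer (Q : Set G)) e x :=
    hns.2.2.2.2.1 x ⟨hxR, hxN⟩
  have hxo : ∃ k, orderOf x = p ^ k := by
    obtain ⟨k, hk⟩ := (IsPGroup.iff_orderOf.mp hRp) ⟨x, hxR⟩
    refine ⟨k, ?_⟩
    rw [← hk, ← Subgroup.orderOf_coe]
  obtain ⟨q, hq, c', hc', rfl⟩ := exists_mul_of_mem_sup_centralizer Q (hc x hxN hxs hxo)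
  have hc'R : c' ∈ R ⊓ Subgroup.normalizer (Q : Set G) := by
    have h1 : c' = q⁻¹ * (q * c') := by group
    rw [h1]
    exact mul_mem (inv_mem ⟨hQR hq, Subgroup.le_normalizer hq⟩) ⟨hxR, hxN⟩
  have h2 : (⟨c', hc'⟩ : Subgroup.centralizer (Q : Set G)) ∈ D := hRD hc'R
  rw [hDZ, Subgroup.mem_subgroupOf] at h2
  exact hxQ (mul_mem hq h2.1)

end

end Cfsg.Agent.Lib.Helper16
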