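import Mathlib

/-!
# A kernel-checkable computation of the primitive part of `q ^ e - 1`

`primPart q e` removes from `q ^ e - 1` all common factors with the numbers `q ^ i - 1`, `i` a
proper divisor of `e`.  The Boolean `chk q e` verifies that the result is a divisor of
`q ^ e - 1` coprime to all these numbers and at least `3 * e + 1`.
-/

set_option autoImplicit false

namespace Cfsg.Agent.Lib.Helper16.PP

/-- remove from `m` the common factors with `a` (with fuel) -/
def strip : ℕ → ℕ → ℕ → ℕ
  | 0, m, _ => m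
  | fuel + 1, m, a => if Nat.gcd m a = 1 then m else strip fuel (m / Nat.gcd m a) a

/-- indices which are not proper divisors of `e` are skipped -/
def skip (e i : ℕ) : Bool := i == 0 || !(e % i == 0)

/-- the primitive part of `q ^ e - 1`, computed -/
def primPart (q e : ℕ) : ℕ :=
  (List.range e).foldl (fun m i => if skip e i then m else strip 32 m (q ^ i - 1)) (q ^ e - 1)

/-- `m` is a divisor of `q ^ e - 1` coprime to `q ^ i - 1` for the proper divisors `i` of `e`,
and `3 e + 1 ≤ m` -/
def chkWith (q e m : ℕ) : Bool :=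
  ((q ^ e - 1) % m == 0) &&
    ((List.range e).all (fun i => skip e i || Nat.gcd m (q ^ i - 1) == 1) &&
      Nat.ble (3 * e + 1) m)

def chk (q e : ℕ) : Bool := chkWith q e (primPart q e)

/-- the thirteen exceptional pairs -/
def isExc (q e : ℕ) : Bool :=
  (q == 2 && (e == 3 || e == 4 || e == 6 || e == 8 || e == 10 || e == 12 || e == 18 || e == 20)) ||
    (q == 3 && (e == 4 || e == 6)) || (q == 4 && (e == 3 || e == 6)) || (q == 5 && e == 6)

set_option maxRecDepth 100000 in
theorem chk_two : (List.range 534).all (fun j => isExc 2 (j + 3) || chk 2 (j + 3)) = true := by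
  decide +kernel

set_option maxRecDepth 100000 in
theorem chk_small : (List.range 15).all (fun a => (List.range 146).all
    (fun j => isExc (a + 3) (j + 3) || chk (a + 3) (j + 3))) = true := by
  decide +kernel

/-- coprimality with `q ^ i - 1` for the proper divisors `i` of `e` suffices -/
theorem coprime_of_divisors {q e m : ℕ} (hm : m ∣ q ^ e - 1)
    (h : ∀ i, i < e → skip e i = false → Nat.gcd m (q ^ i - 1) = 1) :
    ∀ i : ℕ, 1 ≤ i → i < e → Nat.Coprime m (q ^ i - 1) := by
  intro i hi hie
  have hd1 : 1 ≤ Nat.gcd e i := Nat.gcd_pos_of_pos_right e hi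
  have hdi : Nat.gcd e i ≤ i := Nat.le_of_dvd hi (Nat.gcd_dvd_right e i)
  have hde : Nat.gcd e i ∣ e := Nat.gcd_dvd_left e i
  have hskip : skip e (Nat.gcd e i) = false := by
    unfold skip
    have h0 : (Nat.gcd e i == 0) = false := by
      rw [beq_eq_false_iff_ne]; omega
    have h1 : (e % Nat.gcd e i == 0) = true := by
      rw [beq_iff_eq]; exact Nat.mod_eq_zero_of_dvd hde
    rw [h0, h1]; rfl
  have hc := h (Nat.gcd e i) (lt_of_le_of_lt hdi hie) hskip
  have hg1 : Nat.gcd m (q ^ i - 1) ∣ q ^ Nat.gcd e i - 1 := by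
    rw [← Nat.pow_sub_one_gcd_pow_sub_one]
    exact Nat.dvd_gcd (dvd_trans (Nat.gcd_dvd_left _ _) hm) (Nat.gcd_dvd_right _ _)
  have hg2 : Nat.gcd m (q ^ i - 1) ∣ Nat.gcd m (q ^ Nat.gcd e i - 1) :=
    Nat.dvd_gcd (Nat.gcd_dvd_left _ _) hg1
  rw [hc] at hg2
  exact Nat.dvd_one.mp hg2

theorem chk_spec {q e : ℕ} (h : chk q e = true) :
    ∃ m : ℕ, m ∣ q ^ e - 1 ∧ (∀ i : ℕ, 1 ≤ i → i < e → Nat.Coprime m (q ^ i - 1)) ∧
      3 * e + 1 ≤ m := by
  unfold chk chkWith at h
  rw [Bool.and_eq_true, Bool.and_eq_true] at h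
  obtain ⟨h1, h2, h3⟩ := h
  have hm : primPart q e ∣ q ^ e - 1 := Nat.dvd_of_mod_eq_zero (beq_iff_eq.mp h1)
  refine ⟨primPart q e, hm, coprime_of_divisors hm ?_, Nat.le_of_ble_eq_true h3⟩
  intro i hie hs
  have h4 := List.all_eq_true.mp h2 i (List.mem_range.mpr hie)
  rw [hs, Bool.false_or] at h4
  exact beq_iff_eq.mp h4

theorem dvd_strip {m a : ℕ} (hc : Nat.Coprime m a) :
    ∀ (fuel M : ℕ), m ∣ M → m ∣ strip fuel M a := by
  intro fuel
  induction fuel with
  | zero => intro M hM; exact hM
  | succ n ih =>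
    intro M hM
    unfold strip
    by_cases hg : Nat.gcd M a = 1
    · rw [if_pos hg]; exact hM
    · rw [if_neg hg]
      apply ih
      have h1 : Nat.gcd M a ∣ M := Nat.gcd_dvd_left M a
      have h2 : Nat.Coprime m (Nat.gcd M a) := Nat.Coprime.coprime_dvd_right (Nat.gcd_dvd_right M a) hc
      obtain ⟨c, hc'⟩ := h1
      have h3 : m ∣ Nat.gcd M a * c := hc' ▸ hM
      have h4 : m ∣ c := h2.dvd_of_dvd_mul_left h3
      by_cases hg0 : Nat.gcd M a = 0
      · rw [hg0, Nat.div_zero]; exact dvd_zero m
      · have : M / Nat.gcd M a = c :=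
          Nat.div_eq_of_eq_mul_right (Nat.pos_of_ne_zero hg0) hc'
        rw [this]; exact h4

/-- every primitive divisor divides the computed primitive part -/
theorem dvd_primPart {q e m : ℕ} (hm : m ∣ q ^ e - 1)
    (hcop : ∀ i : ℕ, 1 ≤ i → i < e → Nat.Coprime m (q ^ i - 1)) : m ∣ primPart q e := by
  unfold primPart
  have key : ∀ (l : List ℕ), (∀ i ∈ l, i < e) → ∀ M : ℕ, m ∣ M →
      m ∣ l.foldl (fun m i => if skip e i then m else strip 32 m (q ^ i - 1)) M := by
    intro l
    induction l with
    | nil => intro _ M hM; exact hM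
    | cons a t ih =>
      intro hl M hM
      rw [List.foldl_cons]
      apply ih (fun i hi => hl i (List.mem_cons_of_mem a hi))
      by_cases hs : skip e a = true
      · rw [if_pos hs]; exact hM
      · rw [if_neg hs]
        have ha : 1 ≤ a := by
          by_contra h0
          have : a = 0 := by omega
          apply hs
          rw [this]; rfl
        exact dvd_strip (hcop a ha (hl a List.mem_cons_self)) 32 M hM
  exact key (List.range e) (fun i hi => List.mem_range.mp hi) _ hm

end Cfsg.Agent.Lib.Helper16.PP
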